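import Cfsg.Agent.H153.Dl.RFi22
import Cfsg.Agent.H153.Dl.Cls

/-!
# `Fi22` has at least 40 classes (helper153)

The numbers of fixed points of the squares and the cubes of words. Generated data.
-/

set_option autoImplicit false
set_option maxRecDepth 100000
set_option Elab.async false

namespace Cfsg.Agent.H153.Dl.K22

open Cfsg Cfsg.Agent.H153.Dl Cfsg.Agent.H153.Dl.PR
open Cfsg.Spor.Fi22 (Gen)

/-- `(w, f₂, f₃)` : the numbers of fixed points of `w²` and `w³`. -/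
def tab : List (List Gen × ℕ × ℕ) := [([.c], 3510, 694),
  ([.b, .a], 126, 3510),
  ([.a, .c], 3510, 182),
  ([.i, .d, .h], 182, 30),
  ([.c, .f, .e], 126, 694),
  ([.h, .c, .g], 3510, 54),
  ([.d, .e, .c, .b], 10, 10),
  ([.c, .b, .e, .g], 126, 182),
  ([.a, .d, .i, .h], 182, 14),
  ([.e, .h, .e, .h], 3510, 3510),
  ([.f, .b, .c, .g], 36, 3510),
  ([.h, .e, .d, .c], 126, 54),
  ([.b, .f, .g, .a, .i], 36, 694),
  ([.d, .h, .f, .e, .i], 36, 54),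
  ([.c, .e, .f, .h, .d], 6, 2),
  ([.c, .a, .g, .d, .b], 10, 4),
  ([.a, .c, .f, .e, .b], 14, 30),
  ([.b, .g, .c, .d, .a, .f], 1, 10),
  ([.d, .e, .c, .b, .g, .i], 10, 2),
  ([.i, .a, .b, .e, .d, .f], 14, 14),
  ([.i, .c, .e, .d, .b, .h], 3, 6),
  ([.d, .a, .f, .c, .b, .e], 3, 3),
  ([.c, .e, .a, .b, .g, .f], 182, 38),
  ([.h, .e, .d, .h, .c, .d], 54, 6),
  ([.a, .i, .e, .g, .b, .d], 36, 182),
  ([.f, .g, .b, .i, .h, .c], 0, 3510),
  ([.h, .d, .c, .f, .e, .b], 0, 6),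
  ([.b, .c, .d, .e, .i, .f, .h], 3, 19),
  ([.i, .a, .b, .e, .d, .f, .c], 3, 1),
  ([.b, .a, .c, .i, .d, .g, .f], 1, 4),
  ([.a, .d, .b, .h, .e, .c, .i], 3, 27),
  ([.a, .g, .e, .c, .f, .b, .d], 38, 6),
  ([.f, .b, .g, .c, .h, .a, .e], 182, 6),
  ([.d, .f, .h, .g, .a, .b, .i], 8, 30),
  ([.b, .g, .c, .d, .a, .f, .h], 0, 54),
  ([.c, .e, .b, .h, .f, .a, .d], 0, 0),
  ([.c, .i, .e, .a, .g, .b, .f, .h], 14, 38),
  ([.c, .e, .b, .h, .f, .a, .d, .g], 2, 6),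
  ([.f, .g, .b, .i, .h, .c, .d, .a], 0, 3),
  ([.e, .d, .c, .h, .d, .i, .b, .f, .c, .d], 6, 11)]

theorem tab_ok : chkPs R22 12 2 3 tab = true := by decide +kernel

/-- **`Fi22` has at least 40 classes.** -/
theorem le_k : 40 ≤ Nat.card (ConjClasses Spor.Fi22) := by
  have := fin22
  exact card_le_conjClasses_pow cnt22 tab tab_ok (by decide +kernel)

end Cfsg.Agent.H153.Dl.K22
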