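import Cfsg.Agent.H153.Dl.PR
import Cfsg.Agent.Fischer.Fi22Sub3510
import Cfsg.Agent.Fischer.Fi22Order

/-!
# `Fi22` on its 3510 transpositions, for `H153.Dl.PR` (helper153)
-/

set_option autoImplicit false
set_option maxRecDepth 100000
set_option linter.constructorNameAsVariable false

namespace Cfsg.Agent.H153.Dl

open Cfsg Cfsg.Agent.Lib.PermNet Cfsg.Agent.Lib.PermNetPt Cfsg.Agent.Fischer.Fi22Perm
open Cfsg.Agent.Fischer.Fi22Sub3510
open Cfsg.Spor.Fi22 (Gen)

instance fin22 : Finite Spor.Fi22 :=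
  Nat.finite_of_card_ne_zero (by rw [Fischer.Fi22Order.card_fi22]; norm_num)

theorem φ_inj : Function.Injective φ := by
  have := Fischer.Fi22Order.isSimple
  rw [← MonoidHom.ker_eq_bot_iff]
  rcases (inferInstance : φ.ker.Normal).eq_bot_or_eq_top with h | h
  · exact h
  · exfalso
    have h1 : (PresentedGroup.of .b : Spor.Fi22) ∈ φ.ker := by rw [h]; exact Subgroup.mem_top _
    rw [MonoidHom.mem_ker] at h1
    have h2 := φ_b
    rw [h1] at h2
    exact absurd h2 (by decide)

/-- the group element of a letter -/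
noncomputable def g22 (x : Gen) : Spor.Fi22 := PresentedGroup.of x

/-- the group element of a word -/
noncomputable def w22 (l : List Gen) : Spor.Fi22 := (l.map g22).prod

theorem w22_nil : w22 [] = 1 := rfl

theorem w22_cons (x : Gen) (l : List Gen) : w22 (x :: l) = g22 x * w22 l := by
  unfold w22; rw [List.map_cons, List.prod_cons]

theorem w22_append (l l' : List Gen) : w22 (l ++ l') = w22 l * w22 l' := by
  unfold w22; rw [List.map_append, List.prod_append]

/-- the network word -/
noncomputable def n22 (l : List Gen) : List Net :=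
  List.rec (motive := fun _ => List Net) [] (fun x _ ih => net x :: ih) l

theorem n22_eq (l : List Gen) : n22 l = l.map net := by
  induction l with
  | nil => rfl
  | cons x l ih =>
    show net x :: n22 l = _
    rw [ih, List.map_cons]

theorem n22_ok (l : List Gen) : WOk (2 ^ 12) (n22 l) := by
  rw [n22_eq]
  exact Fischer.Fi22Perm.wok l

theorem φ_w22 (l : List Gen) : φ (w22 l) = wperm (n22 l) := by
  induction l with
  | nil => exact map_one _
  | cons x l ih =>
    rw [w22_cons, map_mul, ih]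
    show _ = wperm (net x :: n22 l)
    rw [wperm_cons]
    congr 1

theorem w22_eq {v w : List Gen} (h : checkEq 12 (n22 v) (n22 w) = true) : w22 v = w22 w := by
  apply φ_inj
  rw [φ_w22, φ_w22]
  exact wperm_eq_of_checkEq (n22_ok v) (n22_ok w) h

theorem g22_sq (x : Gen) : g22 x * g22 x = 1 := by
  apply φ_inj
  rw [map_mul, map_one]
  exact (congrArg₂ (· * ·) (φ_of x) (φ_of x)).trans (f_sq x)

theorem w22_reverse (l : List Gen) : w22 l.reverse = (w22 l)⁻¹ := by
  induction l with
  | nil => rw [List.reverse_nil, w22_nil, inv_one]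
  | cons x l ih =>
    rw [List.reverse_cons, w22_append, ih, w22_cons, w22_cons, w22_nil, mul_one, mul_inv_rev]
    congr 1
    exact (inv_eq_of_mul_eq_one_left (g22_sq x)).symm

/-- The letters in the order of the digits `1, …, 9`. -/
def gl22 : List Gen := [.a, .b, .c, .d, .e, .f, .g, .h, .i]

/-- The letters of the digits. -/
def gd22 (n : ℕ) : Gen := (Gen.a :: gl22).getD n .a

theorem mem_gl22 (x : Gen) : x ∈ gl22 := by cases x <;> decide

/-- The points of the letters. -/
def pn22 : Gen → ℕ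
  | .a => 0
  | .b => 2
  | .c => 6
  | .d => 16
  | .e => 40
  | .f => 88
  | .g => 154
  | .h => 43
  | .i => 92

/-- words moving the point `0` to the points of the letters -/
def gw22 : Gen → List Gen
  | .a => []
  | .b => [.a, .b]
  | .c => [.b, .c, .a, .b]
  | .d => [.c, .d, .b, .c, .a, .b]
  | .e => [.d, .e, .c, .d, .b, .c, .a, .b]
  | .f => [.e, .f, .d, .e, .c, .d, .b, .c, .a, .b]
  | .g => [.f, .g, .e, .f, .d, .e, .c, .d, .b, .c, .a, .b]
  | .h => [.d, .h, .c, .d, .b, .c, .a, .b]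
  | .i => [.h, .i, .d, .h, .c, .d, .b, .c, .a, .b]

theorem gw22_pt (x : Gen) : chkPt (n22 (gw22 x)) 0 (pn22 x) = true := by
  cases x <;> decide +kernel

theorem gw22_conj (x : Gen) : checkEq 12 (n22 (gw22 x ++ [.a])) (n22 ([x] ++ gw22 x)) = true := by
  cases x <;> decide +kernel

/-- The transposition `d` has the point `p`. -/
def IsPt22 (d : Spor.Fi22) (p : ℕ) : Prop := ∃ g : Spor.Fi22, φ g 0 = p ∧ g * g22 .a * g⁻¹ = d

theorem isPt22_gen (x : Gen) : IsPt22 (g22 x) (pn22 x) := by
  refine ⟨w22 (gw22 x), ?_, ?_⟩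
  · rw [φ_w22]
    exact chkPt_spec (n22_ok _) (gw22_pt x)
  · have h := w22_eq (gw22_conj x)
    rw [w22_append, w22_append, w22_cons, w22_cons, w22_nil, mul_one, mul_one] at h
    rw [h, mul_inv_cancel_right]

theorem comm_a {l : List Gen} (h : checkEq 12 (n22 (l ++ [.a])) (n22 ([.a] ++ l)) = true) :
    w22 l * g22 .a = g22 .a * w22 l := by
  have h1 := w22_eq h
  rwa [w22_append, w22_append, w22_cons, w22_nil, mul_one] at h1

/-- the word `(abcdeh)^5` -/
def u22 : List Gen := [.a, .b, .c, .d, .e, .h, .a, .b, .c, .d, .e, .h, .a, .b, .c, .d, .e, .h, .a, .b, .c, .d, .e, .h,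
  .a, .b, .c, .d, .e, .h]

theorem ck_c : checkEq 12 (n22 ([.c] ++ [.a])) (n22 ([.a] ++ [.c])) = true := by decide +kernel
theorem ck_d : checkEq 12 (n22 ([.d] ++ [.a])) (n22 ([.a] ++ [.d])) = true := by decide +kernel
theorem ck_e : checkEq 12 (n22 ([.e] ++ [.a])) (n22 ([.a] ++ [.e])) = true := by decide +kernel
theorem ck_f : checkEq 12 (n22 ([.f] ++ [.a])) (n22 ([.a] ++ [.f])) = true := by decide +kernel
theorem ck_g : checkEq 12 (n22 ([.g] ++ [.a])) (n22 ([.a] ++ [.g])) = true := by decide +kernel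
theorem ck_h : checkEq 12 (n22 ([.h] ++ [.a])) (n22 ([.a] ++ [.h])) = true := by decide +kernel
theorem ck_i : checkEq 12 (n22 ([.i] ++ [.a])) (n22 ([.a] ++ [.i])) = true := by decide +kernel
theorem ck_u : checkEq 12 (n22 (u22 ++ [.a])) (n22 ([.a] ++ u22)) = true := by decide +kernel

theorem comm_one {x : Gen} (h : checkEq 12 (n22 ([x] ++ [.a])) (n22 ([.a] ++ [x])) = true) :
    g22 x * g22 .a = g22 .a * g22 x := by
  have h1 := comm_a h
  rwa [w22_cons, w22_nil, mul_one] at h1

theorem H_comm {h : Spor.Fi22} (hh : h ∈ H) : h * g22 .a = g22 .a * h := by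
  rw [H_eq] at hh
  have hle : Subgroup.closure (q '' S) ≤ Subgroup.centralizer ({g22 .a} : Set Spor.Fi22) := by
    rw [Subgroup.closure_le]
    rintro _ ⟨x, hx, rfl⟩
    rw [SetLike.mem_coe, Subgroup.mem_centralizer_singleton_iff]
    simp only [S, Set.mem_insert_iff, Set.mem_singleton_iff] at hx
    rcases hx with rfl | rfl | rfl | rfl | rfl | rfl | rfl | rfl | rfl
    · rfl
    · exact comm_one ck_c
    · exact comm_one ck_d
    · exact comm_one ck_e
    · exact comm_one ck_f
    · exact comm_one ck_g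
    · exact comm_one ck_h
    · exact comm_one ck_i
    · have h1 := comm_a ck_u
      have h2 : w22 u22 = q ((Cfsg.Spor.Fi22.a * Cfsg.Spor.Fi22.b * Cfsg.Spor.Fi22.c *
        Cfsg.Spor.Fi22.d * Cfsg.Spor.Fi22.e * Cfsg.Spor.Fi22.h) ^ 5) := by
        simp only [u22, w22_cons, w22_nil, mul_one, map_mul, pow_succ, pow_zero, one_mul, mul_assoc]
        rfl
      rwa [h2] at h1
  exact Subgroup.mem_centralizer_singleton_iff.1 (hle hh)

theorem IsPt22.inj {d d' : Spor.Fi22} {p : ℕ} (h : IsPt22 d p) (h' : IsPt22 d' p) : d = d' := by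
  obtain ⟨g, hg, rfl⟩ := h
  obtain ⟨g', hg', rfl⟩ := h'
  have h1 : g'⁻¹ * g ∈ H := by
    rw [← main.2.1, map_mul, Equiv.Perm.mul_apply, hg, map_inv, Equiv.Perm.inv_eq_iff_eq, hg']
  have h2 := H_comm h1
  calc g * g22 .a * g⁻¹ = g' * (g'⁻¹ * g * g22 .a) * g⁻¹ := by group
    _ = g' * (g22 .a * (g'⁻¹ * g)) * g⁻¹ := by rw [h2]
    _ = g' * g22 .a * g'⁻¹ := by group

theorem eq_one22 (g : Spor.Fi22) (h : ∀ c ∈ gl22, g * w22 [c] = w22 [c] * g) : g = 1 := by
  have hs := Fischer.Fi22Order.isSimple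
  have hg : g ∈ Subgroup.center Spor.Fi22 := by
    rw [Subgroup.mem_center_iff]
    have h1 : (⊤ : Subgroup Spor.Fi22) ≤ Subgroup.centralizer ({g} : Set Spor.Fi22) := by
      rw [← PresentedGroup.closure_range_of, Subgroup.closure_le]
      rintro _ ⟨x, rfl⟩
      rw [SetLike.mem_coe, Subgroup.mem_centralizer_singleton_iff]
      have h2 := h x (mem_gl22 x)
      rw [w22_cons, w22_nil, mul_one] at h2
      exact h2.symm
    intro k
    exact Subgroup.mem_centralizer_singleton_iff.1 (h1 (Subgroup.mem_top k))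
  rcases (inferInstance : (Subgroup.center Spor.Fi22).Normal).eq_bot_or_eq_top with h1 | h1
  · rw [h1, Subgroup.mem_bot] at hg
    exact hg
  · exfalso
    -- `b` would commute with `a`, but moves the point `0`
    have h2 : g22 .b ∈ Subgroup.center Spor.Fi22 := by rw [h1]; exact Subgroup.mem_top _
    have h3 := (isPt22_gen .a)
    have h4 : IsPt22 (g22 .a) (φ (g22 .b) 0) := ⟨g22 .b, rfl, by
      rw [← Subgroup.mem_center_iff.1 h2, mul_inv_cancel_right]⟩
    have h5 : φ (g22 .b) 0 = 1 := φ_b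
    rw [h5] at h4
    -- the point of `a` is `0` : `a` fixes `0` and not `1`
    have h6 : φ (g22 .a) 1 = 1 := by
      have h7 : φ (g22 .a * g22 .b) 0 = φ (g22 .b * g22 .a) 0 := by
        rw [Subgroup.mem_center_iff.1 h2]
      rw [map_mul, map_mul, Equiv.Perm.mul_apply, Equiv.Perm.mul_apply, h5] at h7
      have h8 : φ (g22 .a) 0 = 0 := (main.2.1 _).2 ⟨Cfsg.Spor.Fi22.a, Subgroup.subset_closure (by simp [S]), rfl⟩
      rw [h8, h5] at h7
      exact h7
    have h9 : φ (g22 .a) 1 = 2 := by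
      have h10 : chkPt (n22 [.a]) 1 2 = true := by decide +kernel
      have h11 := chkPt_spec (n22_ok _) h10
      rwa [← φ_w22, w22_cons, w22_nil, mul_one] at h11
    rw [h9] at h6
    exact absurd h6 (by decide)

/-- `Fi22` on its transpositions. -/
noncomputable def R22 : PR Spor.Fi22 where
  Lt := Gen
  N := 2 ^ 12
  nw := n22
  wok := n22_ok
  word := w22
  word_nil := w22_nil
  word_append := w22_append
  word_reverse := w22_reverse
  rho := φ
  rho_word := φ_w22
  IsPt := IsPt22
  conj := by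
    rintro _ _ ⟨k, rfl, rfl⟩ g
    exact ⟨g * k, by rw [map_mul, Equiv.Perm.mul_apply], by group⟩
  inj h h' := h.inj h'
  gl := gl22
  gd := gd22
  pn := pn22
  isPt_gen c := by rw [w22_cons, w22_nil, mul_one]; exact isPt22_gen c
  U := 2 ^ 3510 - 1
  bit := by
    rintro _ p ⟨g, rfl, -⟩
    rw [Nat.testBit_two_pow_sub_one, decide_eq_true (main.2.2 g)]
  eq_one := eq_one22

theorem cnt22 : R22.Cnt 12 where
  ok l := R22.wok l
  lt := by
    show 2 ^ 3510 - 1 < 2 ^ 2 ^ 12
    exact lt_of_lt_of_le (Nat.sub_lt (pow_pos (by norm_num) _) (by norm_num))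
      (Nat.pow_le_pow_right (by norm_num) (by norm_num))
  inv := by
    intro g p hp
    have hp' : p < 3510 := by
      have h1 : (2 ^ 3510 - 1 : ℕ).testBit p = true := hp
      rw [Nat.testBit_two_pow_sub_one] at h1
      simpa using h1
    obtain ⟨x, rfl⟩ := transitive p hp'
    show (2 ^ 3510 - 1 : ℕ).testBit (φ g (φ x 0)) = true
    rw [← Equiv.Perm.mul_apply, ← map_mul, Nat.testBit_two_pow_sub_one, decide_eq_true (main.2.2 _)]

end Cfsg.Agent.H153.Dl
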