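import Cfsg.Agent.H153.Dl.PR
import Cfsg.Agent.LThreeFi23.Base

/-!
# `Fi23` on its 31671 transpositions, for `H153.Dl.PR` (helper153)
-/

set_option autoImplicit false
set_option maxRecDepth 100000

namespace Cfsg.Agent.H153.Dl

open Cfsg Cfsg.Agent.Lib.PermNet Cfsg.Agent.Lib.PermNetPt Cfsg.Agent.LThreeFi23 Cfsg.Agent.Fischer.Fi23Hom
open Cfsg.Spor (Fi23)

/-- The letters in the order of the digits `1, …, 11`. -/
def gl23 : List LThreeFi23.Lt := [.a, .b, .c, .d, .e, .f, .g, .h, .i, .j, .z]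

/-- The letters of the digits. -/
def gd23 (n : ℕ) : LThreeFi23.Lt := (LThreeFi23.Lt.z :: gl23).getD n .z

theorem mem_gl23 (x : LThreeFi23.Lt) : x ∈ gl23 := by cases x <;> decide

/-- `Fi23` on its transpositions. -/
noncomputable def R23 : PR Fi23 where
  Lt := LThreeFi23.Lt
  N := 2 ^ 15
  nw := ntw
  wok := ntw_ok
  word := elw
  word_nil := elw_nil
  word_append := elw_append
  word_reverse := elw_reverse
  rho := rho
  rho_word := rho_elw
  IsPt d p := p < 31671 ∧ T p = d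
  conj := by
    rintro _ p ⟨hp, rfl⟩ g
    exact ⟨act_lt g hp, T_act g hp⟩
  inj := by
    rintro _ _ p ⟨_, rfl⟩ ⟨_, rfl⟩
    rfl
  gl := gl23
  gd := gd23
  pn := pt
  isPt_gen c := ⟨pt_lt c, by rw [T_pt, elw_cons, elw_nil, mul_one]⟩
  U := 2 ^ 31671 - 1
  bit := by
    rintro _ p ⟨hp, -⟩
    rw [Nat.testBit_two_pow_sub_one, decide_eq_true hp]
  eq_one g h := eq_one_of_comm fun c => by
    have h1 := h c (mem_gl23 c)
    rwa [elw_cons, elw_nil, mul_one] at h1

end Cfsg.Agent.H153.Dl
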